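import Cfsg.Agent.HZ.Red.Hat
import Cfsg.Agent.H677.CodPrime
import Cfsg.Agent.Lib.MinNormal

/-!
# HZ, the reduction: the induction and the wording of the statement (helper17)

`AllK M` : `HF` for all quasisimple groups with the induction hypothesis; `hh_of` : `HH` for all finite groups;
`s4909_of_hh` : the statement.
-/

set_option autoImplicit false

namespace Cfsg.Agent.HZ

open Cfsg Subgroup Cfsg.Agent.ODD.Red Cfsg.Agent.Characters Cfsg.Agent.Characters.Core Cfsg.Agent.Blocks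

universe u

variable {M : Ideal AlgInt}

/-- the statement for all quasisimple groups -/
def AllK (M : Ideal AlgInt) : Prop :=
  ∀ (X : Type) [Group X] [Finite X], IsQuasisimple X → IH M (center X).index → HF M X

/-- the kernel of a character -/
def kerOf {G : Type u} [Group G] [Finite G] {χ : G → ℂ} (hχ : IsCharacter G χ) : Subgroup G where
  carrier := {g | χ g = χ 1}
  one_mem' := rfl
  mul_mem' := fun {a b} ha hb => (apply_mul_of_ker hχ ha b).trans hb
  inv_mem' := fun {a} ha => by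
    have h := apply_mul_of_ker hχ ha a⁻¹
    rw [mul_inv_cancel] at h
    exact h.symm

theorem kerOf_normal {G : Type u} [Group G] [Finite G] {χ : G → ℂ} (hχ : IsCharacter G χ) : (kerOf hχ).Normal :=
  ⟨fun n hn g => (isCharacter_isClassFunction hχ n g).trans hn⟩

theorem hh_step (hM : IsPModular 2 M) (hK : AllK M) (G : Type) [Group G] [Finite G] (ih : IH M (center G).index)
    (ih2 : ∀ (L : Type) [Group L] [Finite L], (center L).index ≤ (center G).index → Nat.card L < Nat.card G → HH M L) :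
    HH M G := by
  have hpos : 0 < (center G).index := Nat.pos_of_ne_zero index_ne_zero_of_finite
  have hsub : ∀ S : Subgroup G, S ≠ ⊤ → HH M S := fun S hS =>
    ih2 S (Nat.le_of_dvd hpos ((center_index_dvd le_rfl S).trans (relIndex_dvd_index_of_normal _ _)))
      (lt_of_le_of_ne (card_le_card_group S) fun h => hS (eq_top_of_card_eq S h))
  by_cases hG : commutator G = ⊤
  swap
  · obtain ⟨f, p, hp, h⟩ := H677.CodPrime.exists_hom_prime hG
    exact rat2_prime hM hsub f.ker (h ▸ hp)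
  intro χ hχ h0 σ hσ hfix
  rcases subsingleton_or_nontrivial G with h1 | h1
  · exact rat2_of_odd (by rw [Nat.card_of_subsingleton (1 : G)]; exact odd_one) (isIrr_isCharacter hχ)
  by_cases hs : IsSimpleGroup (G ⧸ center G)
  · by_cases hf : ∀ g, χ g = χ 1 → g = 1
    · exact hK G ⟨⟨hG⟩, hs⟩ ih χ hχ hf h0 σ hσ hfix
    have := kerOf_normal (isIrr_isCharacter hχ)
    set K := kerOf (isIrr_isCharacter hχ)
    have hs := QuotientGroup.mk'_surjective K
    obtain ⟨η, hη, h2⟩ := exists_quot (QuotientGroup.mk' K) hs hχ fun z hz => by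
      rw [QuotientGroup.ker_mk'] at hz
      exact hz
    obtain ⟨y, hy⟩ := h0
    have h3 : (center G).map (QuotientGroup.mk' K) ≤ center (G ⧸ K) := by
      rintro _ ⟨z, hz, rfl⟩
      rw [mem_center_iff]
      intro w
      obtain ⟨x, rfl⟩ := hs w
      rw [← map_mul, ← map_mul, mem_center_iff.1 hz x]
    have h4 : 1 < Nat.card K := (one_lt_card_iff_ne_bot K).2 fun h => hf fun g hg => mem_bot.1 (h ▸ (hg : g ∈ K))
    have h5 := ih2 (G ⧸ K) (Nat.le_of_dvd hpos ((index_dvd_of_le h3).trans (index_map_dvd _ hs))) (by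
      rw [card_eq_card_quotient_mul_card_subgroup K]
      exact (Nat.lt_mul_iff_one_lt_right Nat.card_pos).2 h4) η hη ⟨_, hy.quot hM _ hs hχ hη h2⟩ σ hσ fun w => by
        obtain ⟨x, rfl⟩ := hs w
        rw [h2, hfix]
    exact fun τ hτ g => by rw [← h2, h5 τ hτ]
  · have h2 : Nontrivial (G ⧸ center G) := by
      rw [QuotientGroup.nontrivial_iff]
      intro h
      have h3 : commutator G = ⊥ := by rw [commutator_def, commutator_top_right_eq_bot_iff_le_center, h]
      exact top_ne_bot (hG.symm.trans h3)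
    obtain ⟨N', hN', h3, h4⟩ : ∃ N' : Subgroup (G ⧸ center G), N'.Normal ∧ N' ≠ ⊥ ∧ N' ≠ ⊤ := by
      by_contra! h
      exact hs ⟨fun H hH => or_iff_not_imp_left.2 (h H hH)⟩
    have hs := QuotientGroup.mk'_surjective (center G)
    set N := N'.comap (QuotientGroup.mk' (center G)) with hN
    have h5 : center G < N := by
      refine lt_of_le_of_ne (QuotientGroup.le_comap_mk' _ _) fun h => h3 (comap_injective hs ?_)
      rw [← hN, ← h, MonoidHom.comap_bot, QuotientGroup.ker_mk']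
    have h6 : N ≠ ⊤ := fun h => h4 (comap_injective hs (by rw [← hN, h, comap_top]))
    by_contra hn
    have := Fintype.ofFinite G
    have := Fintype.ofFinite N
    obtain ⟨θ, hθ, hc, -⟩ := OddOrderCharacters.PF9.CliffGen.exists_constituent (le_refl N)
      (θ := fun n : N => χ n) (Clifford.isCharacter_restrict N (isIrr_isCharacter hχ)) fun h =>
        isIrr_apply_one_ne_zero hχ (congrFun (classInner_self_eq_zero h) 1)
    have hinv := homog hM hsub hχ h0 hσ hfix hn N hθ hc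
    obtain ⟨e, he⟩ := exists_restrict N hχ hθ hinv hc
    exact hn (rat2_hat hM hG N h5 h6 ih hχ h0 hσ hfix hθ hinv he)

theorem ih_all (hM : IsPModular 2 M) (hK : AllK M) (n : ℕ) : IH M n := by
  induction n with
  | zero => exact fun _ _ _ h => absurd h (Nat.not_lt_zero _)
  | succ n ih =>
    have key : ∀ (k : ℕ) (L : Type) [Group L] [Finite L], Nat.card L = k → (center L).index < n + 1 → HH M L := by
      intro k
      induction k using Nat.strong_induction_on with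
      | _ k ih2 =>
      intro L _ _ hk h
      exact hh_step hM hK L (fun K _ _ h1 => ih K (by omega)) fun K _ _ h1 h2 => ih2 _ (hk ▸ h2) K rfl (by omega)
    exact fun L _ _ h => key _ L rfl h

/-- **The reduction.** -/
theorem hh_of (hM : IsPModular 2 M) (hK : AllK M) (G : Type u) [Group G] [Finite G] : HH M G := by
  obtain ⟨L, _, ⟨e⟩⟩ := Lib.MinNormal.exists_type_zero_model G
  have : Finite L := Finite.of_equiv G e.symm.toEquiv
  intro χ hχ ⟨y, hy⟩ σ hσ hfix τ hτ g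
  have h1 : IsIrrCharacter L fun x => χ (e x) := isIrr_comp' e.toMonoidHom e.surjective hχ
  have h2 := ih_all hM hK _ L (Nat.lt_succ_self _) _ h1
    ⟨_, hy.quot hM e.symm.toMonoidHom e.symm.surjective hχ h1 fun g => congrArg χ (e.apply_symm_apply g)⟩ σ hσ
    (fun x => hfix _) τ hτ (e.symm g)
  rwa [e.apply_symm_apply] at h2

theorem root_split {a m : ℕ} (hm : Odd m) {z : ℂ} (hz : z ^ (2 ^ a * m) = 1) :
    ∃ u v : ℂ, u ^ 2 ^ a = 1 ∧ v ^ m = 1 ∧ z = u * v := by
  have hcop : (2 ^ a).Coprime m := Nat.Coprime.pow_left a (Nat.coprime_two_left.2 hm)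
  obtain ⟨k, hk1, hk2⟩ := Nat.chineseRemainder hcop 1 0
  obtain ⟨l, hl1, hl2⟩ := Nat.chineseRemainder hcop 0 1
  have h1 : k + l ≡ 1 [MOD 2 ^ a * m] :=
    (Nat.modEq_and_modEq_iff_modEq_mul hcop).1 ⟨by simpa using hk1.add hl1, by simpa using hk2.add hl2⟩
  have h2 : z = z ^ k * z ^ l := by rw [← pow_add, pow_eq_pow_of_modEq h1 hz, pow_one]
  obtain ⟨k', rfl⟩ := Nat.modEq_zero_iff_dvd.1 hk2
  obtain ⟨l', rfl⟩ := Nat.modEq_zero_iff_dvd.1 hl1
  refine ⟨_, _, ?_, ?_, h2⟩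
  · rw [← pow_mul, show m * k' * 2 ^ a = 2 ^ a * m * k' by ring, pow_mul, hz, one_pow]
  · rw [← pow_mul, show 2 ^ a * l' * m = 2 ^ a * m * l' by ring, pow_mul, hz, one_pow]

theorem exists_pow_neg {τ : ℂ ≃+* ℂ} (hI : τ Complex.I = Complex.I) (a : ℕ) :
    ∀ ζ : ℂ, ζ ^ 2 ^ a = 1 → τ ζ ≠ ζ → ∃ j : ℕ, (τ ^ j) ζ = -ζ := by
  induction a with
  | zero =>
    intro ζ h1 h2
    rw [pow_zero, pow_one] at h1
    exact absurd (by rw [h1, map_one]) h2
  | succ a ih =>
    intro ζ h1 h2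
    by_cases h3 : τ (ζ ^ 2) = ζ ^ 2
    · rw [map_pow] at h3
      exact ⟨1, (sq_eq_sq_iff_eq_or_eq_neg.1 h3).resolve_left h2⟩
    · obtain ⟨j, hj⟩ := ih (ζ ^ 2) (by rw [← pow_mul, ← pow_succ', h1]) h3
      have h4 : (τ ^ j) Complex.I = Complex.I :=
        Fix.pow (χ := fun _ : Unit => Complex.I) (fun _ => hI) j ()
      have h5 : ((τ ^ j) ζ) ^ 2 = (Complex.I * ζ) ^ 2 := by
        rw [← map_pow, hj, mul_pow, Complex.I_sq, neg_one_mul]
      refine ⟨j + j, ?_⟩
      rw [pow_add, RingAut.mul_apply]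
      rcases sq_eq_sq_iff_eq_or_eq_neg.1 h5 with h6 | h6
      · rw [h6, map_mul, h4, h6, ← mul_assoc, Complex.I_mul_I, neg_one_mul]
      · rw [h6, map_neg, map_mul, h4, h6, mul_neg, neg_neg, ← mul_assoc, Complex.I_mul_I, neg_one_mul]

/-- **S4909**, the wording of the statement. -/
theorem s4909_of_hh {G : Type u} [Group G] [Finite G] (hM : IsPModular 2 M) (hH : HH M G) (χ : IrrCharacter G)
    (h0 : blockHeight 2 (blockOf M (χ : G → ℂ)) (χ : G → ℂ) = 0) (n : ℕ) (hn : 0 < n)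
    (hin : ∀ g : G, (χ : G → ℂ) g ∈
      IntermediateField.adjoin ℚ ({Complex.exp (2 * Real.pi * Complex.I / (n))} : Set ℂ))
    (hmin : ∀ k : ℕ, 0 < k → (∀ g : G, (χ : G → ℂ) g ∈
      IntermediateField.adjoin ℚ ({Complex.exp (2 * Real.pi * Complex.I / (k))} : Set ℂ)) → n ≤ k) :
    Complex.exp (2 * Real.pi * Complex.I / (2 ^ n.factorization 2)) ∈ IntermediateField.adjoin ℚ
      ({Complex.exp (2 * Real.pi * Complex.I / (n / 2 ^ n.factorization 2))} ∪ Set.range (χ : G → ℂ)) := by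
  obtain ⟨a, m, hm, rfl⟩ := Nat.exists_eq_two_pow_mul_odd hn.ne'
  have ha : (2 ^ a * m).factorization 2 = a := by
    rw [Nat.factorization_mul (pow_ne_zero _ two_ne_zero) hm.pos.ne', Finsupp.add_apply, Nat.prime_two.factorization_pow,
      Finsupp.single_eq_same, Nat.factorization_eq_zero_of_not_dvd hm.not_two_dvd_nat, add_zero]
  have h2a : (2 ^ a : ℕ) ≠ 0 := pow_ne_zero _ two_ne_zero
  have : NeZero (2 ^ a : ℕ) := ⟨h2a⟩
  rw [ha, show ((2 ^ a * m : ℕ) : ℂ) / 2 ^ a = m by push_cast; field_simp,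
    show (2 : ℂ) ^ a = ((2 ^ a : ℕ) : ℂ) by push_cast; rfl]
  have hζ := Complex.isPrimitiveRoot_exp (2 ^ a) h2a
  set ζ := Complex.exp (2 * Real.pi * Complex.I / ((2 ^ a : ℕ) : ℂ))
  have halg := isAlgebraic_char (isIrr_isCharacter χ.2)
  have agree : ∀ s t : ℂ ≃+* ℂ, s ζ = t ζ → (∀ z : ℂ, z ^ m = 1 → s z = z) → (∀ z : ℂ, z ^ m = 1 → t z = z) →
      ∀ g, s ((χ : G → ℂ) g) = t ((χ : G → ℂ) g) := by
    intro s t h1 h2 h3 g
    have h4 := (mem_cyc_iff hn.ne' (halg g)).1 (hin g) (s.trans t.symm) fun z hz => by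
      obtain ⟨u, v, hu, hv, rfl⟩ := root_split hm hz
      obtain ⟨i, -, rfl⟩ := hζ.eq_pow_of_pow_eq_one hu
      rw [RingEquiv.trans_apply, RingEquiv.symm_apply_eq, map_mul, map_mul, map_pow, map_pow, h1, h2 v hv, h3 v hv]
    rwa [RingEquiv.trans_apply, RingEquiv.symm_apply_eq] at h4
  have twoOf : ∀ s : ℂ ≃+* ℂ, ∃ τ, Two τ ∧ τ ζ = s ζ := by
    intro s
    obtain ⟨k, hk, h1⟩ := GaloisBasic.exists_coprime_pow (s : ℂ →+* ℂ) (n := 2 ^ (a + 1)) (pow_ne_zero _ two_ne_zero)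
    obtain ⟨τ, h2, h3⟩ := exists_two_pow a (k := k)
      (Nat.coprime_two_right.1 (hk.coprime_dvd_right (dvd_pow_self 2 (Nat.succ_ne_zero a))))
    refine ⟨τ, h2, ?_⟩
    rw [h3 ζ hζ.pow_eq_one]
    exact (h1 ζ (by rw [pow_succ, pow_mul, hζ.pow_eq_one, one_pow])).symm
  rw [mem_adjoin_iff (isAlgebraic_of_pow_eq_one h2a hζ.pow_eq_one)]
  intro s hs
  have hsm : ∀ z : ℂ, z ^ m = 1 → s z = z := fun z hz =>
    fixed_of_mem_adjoin (fun x hx => hs x (Or.inl hx)) (mem_cyc_of_pow hm.pos.ne' hz)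
  obtain ⟨τ, hτ, h1⟩ := twoOf s
  have hfix : Fix τ (χ : G → ℂ) := fun g =>
    (agree τ s h1 (fun z => hτ m z hm) hsm g).trans (hs _ (Or.inr ⟨g, rfl⟩))
  rw [← h1]
  by_contra h2
  rcases map_I τ with hI | hI
  · obtain ⟨j, hj⟩ := exists_pow_neg hI a ζ hζ.pow_eq_one h2
    obtain rfl | ⟨b, rfl⟩ : a = 0 ∨ ∃ b, a = b + 1 := by cases a <;> simp
    · have h3 := hζ.pow_eq_one
      rw [pow_zero, pow_one] at h3
      exact h2 (by rw [h3, map_one])
    have h3 : 0 < 2 ^ b * m := mul_pos (pow_pos two_pos _) hm.pos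
    have h4 := hmin (2 ^ b * m) h3 fun g => (mem_cyc_iff h3.ne' (halg g)).2 fun t ht => by
      have h5 : ∀ z : ℂ, z ^ m = 1 → t z = z := fun z hz => ht z (by rw [mul_comm, pow_mul, hz, one_pow])
      have h6 := ht (ζ ^ 2) (by rw [pow_mul, ← pow_mul ζ, ← pow_succ', hζ.pow_eq_one, one_pow])
      rw [map_pow] at h6
      rcases sq_eq_sq_iff_eq_or_eq_neg.1 h6 with h7 | h7
      · exact agree t (RingEquiv.refl ℂ) h7 h5 (fun _ _ => rfl) g
      · exact (agree t (τ ^ j) (h7.trans hj.symm) h5 (fun z => hτ.pow j m z hm) g).trans (hfix.pow j g)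
    rw [pow_succ, mul_right_comm] at h4
    omega
  · have h3 := hH _ χ.2 ((h0_iff hM χ).1 h0) τ ⟨hτ, hI⟩ hfix
    have h4 := hmin m hm.pos fun g => (mem_cyc_iff hm.pos.ne' (halg g)).2 fun t ht => by
      obtain ⟨ρ, h5, h6⟩ := twoOf t
      exact (agree t ρ h6.symm ht (fun z => h5 m z hm) g).trans (h3 ρ h5 g)
    have h5 : 2 ^ a = 1 := le_antisymm (Nat.le_of_mul_le_mul_right (by rwa [one_mul]) hm.pos) (Nat.pos_of_ne_zero h2a)
    have h6 := hζ.pow_eq_one
    rw [h5, pow_one] at h6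
    exact h2 (by rw [h6, map_one])

end Cfsg.Agent.HZ
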